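/-
The final contradiction for strongly closed metacyclic subgroups: a normal subsection `R` of a
metacyclic `p`-group `U` (`p` odd), with an automorphism inverting `R / Φ(R)`, and an element of `U` acting
nontrivially on `R / Φ(R)`, cannot exist.
-/
import Mathlib
import Cfsg.Agent.Lib.Fusion.Resist.GL
import Cfsg.Agent.Lib.OddOrder.MetaAct

set_option autoImplicit false
set_option linter.style.haveILetI false
set_option linter.unusedSectionVars false

namespace Cfsg.Agent.Lib.Fusion.Resist.Invert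

open Cfsg.Agent.Lib.PGroup Cfsg.Agent.Lib.Fusion.Resist.GL

section Helpers

variable {G : Type*} [Group G]

theorem mem_of_mul_self_mem {L : Subgroup G} {r : G} (hr : Odd (orderOf r)) (h : r * r ∈ L) :
    r ∈ L := by
  obtain ⟨k, hk⟩ := hr
  have h1 : r = (r * r) ^ (k + 1) := by
    have h2 : r ^ orderOf r = 1 := pow_orderOf_eq_one r
    have h3 : (r * r) ^ (k + 1) = r ^ orderOf r * r := by
      rw [hk, ← pow_two, ← pow_mul, ← pow_succ]
      congr 1
    rw [h3, h2, one_mul]
  rw [h1]
  exact pow_mem h _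

theorem eq_one_of_mul_self {r : G} (hr : Odd (orderOf r)) (h : r * r = 1) : r = 1 := by
  have h1 : r ∈ (⊥ : Subgroup G) := mem_of_mul_self_mem hr (by rw [h]; exact one_mem _)
  exact h1

theorem odd_orderOf_of_isPGroup {p : ℕ} [hp : Fact p.Prime] (hodd : Odd p) (hG : IsPGroup p G)
    (r : G) : Odd (orderOf r) := by
  obtain ⟨k, hk⟩ := hG r
  obtain ⟨j, -, hj⟩ := (Nat.dvd_prime_pow hp.out).1 (orderOf_dvd_of_pow_eq_one hk)
  rw [hj]
  exact hodd.pow

end Helpers

section Neg

variable {p : ℕ} {V : Type*} [AddCommGroup V] [Module (ZMod p) V]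

theorem neg_mul_eq (g : V ≃ₗ[ZMod p] V) :
    LinearEquiv.neg (ZMod p) * g = g * LinearEquiv.neg (ZMod p) := by
  ext v
  show -(g v) = g (-v)
  rw [map_neg]

theorem neg_mul_neg_eq : (LinearEquiv.neg (ZMod p) : V ≃ₗ[ZMod p] V) * LinearEquiv.neg (ZMod p) = 1 := by
  ext v
  show - - v = v
  simp

theorem neg_pow_odd {b : ℕ} (hb : Odd b) :
    (LinearEquiv.neg (ZMod p) : V ≃ₗ[ZMod p] V) ^ b = LinearEquiv.neg (ZMod p) := by
  obtain ⟨c, rfl⟩ := hb
  rw [pow_succ, pow_mul, pow_two, neg_mul_neg_eq, one_pow, one_mul]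

end Neg

section Main

variable {Ω : Type*} [Group Ω] {p : ℕ} [hp : Fact p.Prime]

theorem finrank_le_one_of_isCyclic {H : Type*} [Group H] {V : Type*} [AddCommGroup V] [Module (ZMod p) V]
    [Finite V] (hc : IsCyclic H) (π : H →* Multiplicative V) (hπ : Function.Surjective π) :
    Module.finrank (ZMod p) V ≤ 1 := by
  classical
  haveI : Module.Finite (ZMod p) V := Module.Finite.of_finite
  obtain ⟨g, hg⟩ := hc.exists_generator
  let T : Finset V := {Multiplicative.toAdd (π g)}
  have htop : Submodule.span (ZMod p) (T : Set V) = ⊤ := by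
    rw [eq_top_iff]
    intro v _
    obtain ⟨x, hx⟩ := hπ (Multiplicative.ofAdd v)
    have : v = Multiplicative.toAdd (π x) := by rw [hx]; rfl
    rw [this]
    obtain ⟨i, rfl⟩ := Subgroup.mem_zpowers_iff.1 (hg x)
    rw [map_zpow, toAdd_zpow]
    exact Submodule.smul_of_tower_mem _ _ (Submodule.subset_span (by simp [T]))
  have h1 := finrank_span_finset_le_card (R := ZMod p) T
  rw [Set.finrank, htop, finrank_top] at h1
  simpa [T] using h1

/-- A `2`-element acting on a set of odd size has a fixed point. -/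
theorem exists_fixed_of_odd {Y : Type*} [Finite Y] (f : Equiv.Perm Y) {a : ℕ} (hf : f ^ 2 ^ a = 1)
    (hY : Odd (Nat.card Y)) : ∃ y, f y = y := by
  classical
  haveI := Fintype.ofFinite Y
  haveI : Fact (Nat.Prime 2) := ⟨Nat.prime_two⟩
  apply Equiv.Perm.exists_fixed_point_of_prime (p := 2) (n := a) _ hf
  rw [← Nat.card_eq_fintype_card]
  exact hY.not_two_dvd_nat

/-- **The final contradiction**. -/
theorem false_of_invert (hodd : Odd p) {U R : Subgroup Ω} [Finite U] (hRU : R ≤ U)
    (hUp : IsPGroup p U) (hUm : Cfsg.IsMetacyclic U)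
    (hRn : ∀ u ∈ U, ∀ r ∈ R, u * r * u⁻¹ ∈ R)
    {V : Type*} [AddCommGroup V] [Module (ZMod p) V]
    (π : R →* Multiplicative V) (hπ : Function.Surjective π) (hker : π.ker = frattini R)
    (σ : MulAut U) (σR : MulAut R)
    (hσ : ∀ r : R, ((σ (Subgroup.inclusion hRU r) : U) : Ω) = σR r)
    (hneg : ∀ r, π (σR r) = (π r)⁻¹)
    {u₀ : Ω} (hu₀ : u₀ ∈ U) (r₀ r₀' : R) (hr' : (r₀' : Ω) = u₀ * r₀ * u₀⁻¹) (hne : π r₀' ≠ π r₀) :
    False := by
  classical
  have hp' : p.Prime := hp.out
  have hp2 : p ≠ 2 := fun h => by subst h; exact absurd hodd (by decide)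
  have hincl : Function.Injective (Subgroup.inclusion hRU) := Subgroup.inclusion_injective hRU
  haveI : Finite R := Finite.of_injective _ hincl
  haveI : Finite V := by
    have hs : Function.Surjective (fun x : R => Multiplicative.toAdd (π x)) := by
      intro v
      obtain ⟨x, hx⟩ := hπ (Multiplicative.ofAdd v)
      exact ⟨x, by simp [hx]⟩
    exact Finite.of_surjective _ hs
  have hRp : IsPGroup p R := hUp.of_injective _ hincl
  have hRm : Cfsg.IsMetacyclic R := OddOrder.MetaAct.isMetacyclic_of_injective _ hincl hUm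
  have hoddR : ∀ r : R, Odd (orderOf r) := odd_orderOf_of_isPGroup hodd hRp
  have hfin2 : Module.finrank (ZMod p) V ≤ 2 := finrank_le_two_of_metacyclic hRm π hπ hker
  set ρ := frattGL (p := p) π hπ hker with hρdef
  have hρσ : ρ σR = LinearEquiv.neg (ZMod p) := (frattGL_eq_neg_iff π hπ hker σR).2 hneg
  -- the 2-part of `σ`
  obtain ⟨a, b, hbodd, hab⟩ : ∃ a b : ℕ, Odd b ∧ orderOf σ = 2 ^ a * b := by
    haveI : Finite (MulAut U) := by
      exact Finite.of_injective (fun α : MulAut U => (α : U → U))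
        (fun a b h => MulEquiv.ext (congrFun h))
    obtain ⟨a, b, hb, h⟩ := Nat.exists_eq_two_pow_mul_odd (orderOf_pos σ).ne'
    exact ⟨a, b, hb, h⟩
  set τ := σ ^ b with hτdef
  set τR := σR ^ b with hτRdef
  have hτpow : τ ^ 2 ^ a = 1 := by
    rw [hτdef, ← pow_mul, mul_comm, ← hab, pow_orderOf_eq_one]
  have hτk : ∀ (k : ℕ) (r : R), (((σ ^ k) (Subgroup.inclusion hRU r) : U) : Ω) = (σR ^ k) r := by
    intro k
    induction k with
    | zero => intro r; rfl
    | succ k ih =>
      intro r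
      rw [pow_succ', MulAut.mul_apply, pow_succ', MulAut.mul_apply, ← hσ]
      congr 2
      apply Subtype.ext
      exact ih r
  have hτ : ∀ r : R, ((τ (Subgroup.inclusion hRU r) : U) : Ω) = τR r := hτk b
  have hρτ : ρ τR = LinearEquiv.neg (ZMod p) := by
    rw [hτRdef, map_pow, hρσ, neg_pow_odd hbodd]
  have hτRk : ∀ (k : ℕ) (r : R), (((τ ^ k) (Subgroup.inclusion hRU r) : U) : Ω) = (τR ^ k) r := by
    intro k
    induction k with
    | zero => intro r; rfl
    | succ k ih =>
      intro r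
      rw [pow_succ', MulAut.mul_apply, pow_succ', MulAut.mul_apply, ← hτ]
      congr 2
      apply Subtype.ext
      exact ih r
  have hτRpow : τR ^ 2 ^ a = 1 := by
    ext r
    rw [← hτRk, hτpow]
    rfl
  have hneg' : ∀ r, π (τR r) = (π r)⁻¹ := (frattGL_eq_neg_iff π hπ hker τR).1 hρτ
  have hcop2 : (2 ^ a).Coprime p := Nat.Coprime.pow_left a ((Nat.coprime_primes Nat.prime_two hp').2 hp2.symm)
  -- `R` is abelian
  have hcomm : ∀ x y : R, x * y = y * x := by
    let Γ : Subgroup (MulAut R) := Subgroup.zpowers τR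
    haveI : Finite (MulAut R) := by
      exact Finite.of_injective (fun α : MulAut R => (α : R → R))
        (fun a b h => MulEquiv.ext (congrFun h))
    have hcΓ : (Nat.card Γ).Coprime p := by
      rw [Nat.card_zpowers]
      exact Nat.Coprime.coprime_dvd_left (orderOf_dvd_of_pow_eq_one hτRpow) hcop2
    apply OddOrder.MetaAct.comm_of_commClosure_eq_top hodd hRp hRm Γ.subtype hcΓ
    apply frattini_nongenerating
    rw [eq_top_iff]
    intro r _
    apply mem_of_mul_self_mem (hoddR r)
    set C := Coprime.AutAction.commClosure Γ.subtype with hC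
    have h1 : r⁻¹ * τR r ∈ C :=
      Subgroup.subset_closure ⟨r, ⟨τR, Subgroup.mem_zpowers τR⟩, rfl⟩
    have h2 : (r⁻¹ * τR r) * (r * r) ∈ frattini R := by
      rw [← hker, MonoidHom.mem_ker, map_mul, map_mul, map_mul, map_inv, hneg' r]
      group
    have h3 : r * r = (r⁻¹ * τR r)⁻¹ * ((r⁻¹ * τR r) * (r * r)) := by group
    rw [h3]
    exact mul_mem (Subgroup.mem_sup_left (inv_mem h1)) (Subgroup.mem_sup_right h2)
  -- `τR` is an involution
  have hτ2 : τR * τR = 1 := by
    apply eq_one_of_frattGL_eq_one hRp π hπ hker (m := 2 ^ a) _ _ hcop2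
    · rw [map_mul, hρτ]
      exact neg_mul_neg_eq
    · rw [← pow_two, ← pow_mul, mul_comm, pow_mul, hτRpow, one_pow]
  have hτ2' : ∀ r, τR (τR r) = r := fun r => by
    have := congrArg (fun f : MulAut R => f r) hτ2
    exact this
  -- `τR` inverts `R`
  let Inv : Subgroup R :=
    { carrier := {r | τR r = r⁻¹}
      one_mem' := by simp
      mul_mem' := by
        intro x y hx hy
        show τR (x * y) = (x * y)⁻¹
        rw [map_mul, hx, hy, mul_inv_rev, hcomm]
      inv_mem' := by
        intro x hx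
        show τR x⁻¹ = x⁻¹⁻¹
        rw [map_inv, hx] }
  have hInv : Inv = ⊤ := by
    apply frattini_nongenerating
    rw [eq_top_iff]
    intro r _
    apply mem_of_mul_self_mem (hoddR r)
    have h1 : r * τR r ∈ frattini R := by
      rw [← hker, MonoidHom.mem_ker, map_mul, hneg' r, mul_inv_cancel]
    have h2 : r * (τR r)⁻¹ ∈ Inv := by
      show τR (r * (τR r)⁻¹) = (r * (τR r)⁻¹)⁻¹
      rw [map_mul, map_inv, hτ2', mul_inv_rev, inv_inv]
    have h3 : r * r = (r * (τR r)⁻¹) * (r * τR r) := by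
      rw [hcomm r (τR r), mul_assoc, inv_mul_cancel_left]
    rw [h3]
    exact mul_mem (Subgroup.mem_sup_left h2) (Subgroup.mem_sup_right h1)
  have hinvert : ∀ r, τR r = r⁻¹ := fun r => by
    have : r ∈ Inv := by rw [hInv]; trivial
    exact this
  have hfix1 : ∀ r, τR r = r → r = 1 := by
    intro r hr
    apply eq_one_of_mul_self (hoddR r)
    have h1 : r = r⁻¹ := by rw [← hinvert r, hr]
    nth_rewrite 1 [h1]
    exact inv_mul_cancel r
  -- the conjugation action of `U`
  have hUN : U ≤ Subgroup.normalizer (R : Set Ω) := by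
    intro u hu
    rw [Subgroup.mem_normalizer_iff]
    intro h
    constructor
    · exact hRn u hu h
    · intro hh
      have := hRn u⁻¹ (inv_mem hu) _ hh
      simpa [mul_assoc] using this
  let c : U →* MulAut R := R.normalizerMonoidHom.comp (Subgroup.inclusion hUN)
  have hc : ∀ (u : U) (r : R), ((c u r : R) : Ω) = u * r * (u : Ω)⁻¹ := fun u r => rfl
  let κ : U →* (V ≃ₗ[ZMod p] V) := ρ.comp c
  let u₀' : U := ⟨u₀, hu₀⟩
  have hκ0 : κ u₀' ≠ 1 := by
    intro h
    have h1 := (frattGL_eq_one_iff π hπ hker (c u₀')).1 h r₀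
    apply hne
    rw [← h1]
    congr 1
    apply Subtype.ext
    rw [hr']
    rfl
  -- `κ ∘ τ = κ`
  have hκτ : ∀ u : U, κ (τ u) = κ u := by
    intro u
    have h1 : c (τ u) = τR * c u * τR⁻¹ := by
      ext r
      set s := τR⁻¹ r with hs
      have hrs : τR s = r := by simp [hs]
      have h2 : ((τR * c u * τR⁻¹) r : R) = τR (c u s) := rfl
      rw [h2, ← hτ, hc]
      rw [← hrs, ← hτ]
      have h3 : Subgroup.inclusion hRU (c u s) = u * Subgroup.inclusion hRU s * u⁻¹ := by
        apply Subtype.ext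
        rfl
      rw [h3, map_mul, map_mul, map_inv]
      rfl
    show ρ (c (τ u)) = ρ (c u)
    rw [h1, map_mul, map_mul, map_inv, hρτ, neg_mul_eq, mul_assoc, mul_inv_cancel, mul_one]
  -- fixed point on the coset
  let Y : Type _ := {u : U // κ u = κ u₀'}
  haveI : Finite Y := Subtype.finite
  have hτinv : ∀ u : U, κ (τ⁻¹ u) = κ u := by
    intro u
    have := hκτ (τ⁻¹ u)
    rw [MulAut.apply_inv_self] at this
    exact this.symm
  let f : Equiv.Perm Y :=
    { toFun := fun y => ⟨τ y.1, by rw [hκτ]; exact y.2⟩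
      invFun := fun y => ⟨τ⁻¹ y.1, by rw [hτinv]; exact y.2⟩
      left_inv := fun y => Subtype.ext (by simp)
      right_inv := fun y => Subtype.ext (by simp) }
  have hfk : ∀ (k : ℕ) (y : Y), (((f ^ k) y : Y) : U) = (τ ^ k) y.1 := by
    intro k
    induction k with
    | zero => intro y; rfl
    | succ k ih =>
      intro y
      rw [pow_succ', pow_succ', Equiv.Perm.mul_apply, MulAut.mul_apply, ← ih]
      rfl
  have hfpow : f ^ 2 ^ a = 1 := by
    ext y
    rw [hfk, hτpow]
    rfl
  have hYcard : Odd (Nat.card Y) := by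
    have e : Y ≃ κ.ker :=
      { toFun := fun y => ⟨u₀'⁻¹ * y.1, by
          rw [MonoidHom.mem_ker, map_mul, map_inv, y.2, inv_mul_cancel]⟩
        invFun := fun z => ⟨u₀' * z.1, by
          have hz : κ z.1 = 1 := z.2
          rw [map_mul, hz, mul_one]⟩
        left_inv := fun y => Subtype.ext (by simp)
        right_inv := fun z => Subtype.ext (by simp) }
    rw [Nat.card_congr e]
    obtain ⟨n, hn⟩ := IsPGroup.iff_card.1 hUp
    have h1 : Nat.card κ.ker ∣ p ^ n := by
      rw [← hn]
      exact Subgroup.card_subgroup_dvd_card _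
    obtain ⟨m, -, hm⟩ := (Nat.dvd_prime_pow hp').1 h1
    rw [hm]
    exact hodd.pow
  obtain ⟨y, hy⟩ := exists_fixed_of_odd f hfpow hYcard
  have hyτ : τ y.1 = y.1 := congrArg Subtype.val hy
  have hy1 : y.1 ≠ 1 := by
    intro h
    have := y.2
    rw [h, map_one] at this
    exact hκ0 this.symm
  -- an element of order `p` fixed by `τ`
  obtain ⟨k, hk⟩ := hUp y.1
  obtain ⟨j, -, hj⟩ := (Nat.dvd_prime_pow hp').1 (orderOf_dvd_of_pow_eq_one hk)
  have hj0 : j ≠ 0 := by
    rintro rfl
    rw [pow_zero] at hj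
    exact hy1 (orderOf_eq_one_iff.1 hj)
  obtain ⟨i, rfl⟩ := Nat.exists_eq_succ_of_ne_zero hj0
  set w : U := y.1 ^ p ^ i with hw
  have hwp : w ^ p = 1 := by
    rw [hw, ← pow_mul, ← pow_succ, ← hj, pow_orderOf_eq_one]
  have hw1 : w ≠ 1 := by
    apply pow_ne_one_of_lt_orderOf (pow_pos hp'.pos i).ne'
    rw [hj]
    exact Nat.pow_lt_pow_succ hp'.one_lt
  have hτw : τ w = w := by
    rw [hw, map_pow, hyτ]
  -- `R` is not cyclic
  have hnc : ¬ IsCyclic R := by
    intro hcyc
    have h1 := finrank_le_one_of_isCyclic (p := p) hcyc π hπ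
    obtain ⟨k', hk'⟩ := hUp u₀'
    apply hκ0
    apply eq_one_of_finrank_le_one h1 (k := k')
    rw [← map_pow, hk', map_one]
  have hnc' : ¬ IsCyclic (R.subgroupOf U) := by
    intro hcyc
    exact hnc (isCyclic_of_surjective _ (Subgroup.subgroupOfEquivOfLe hRU).surjective)
  have htopm : Cfsg.IsMetacyclic (⊤ : Subgroup U) :=
    OddOrder.MetaAct.isMetacyclic_of_injective (Subgroup.topEquiv (G := U)).toMonoidHom
      (Subgroup.topEquiv (G := U)).injective hUm
  have htopp : IsPGroup p (⊤ : Subgroup U) :=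
    hUp.of_injective (Subgroup.topEquiv (G := U)).toMonoidHom (Subgroup.topEquiv (G := U)).injective
  have hwR : w ∈ R.subgroupOf U :=
    OddOrder.MetaAct.mem_of_pow_eq_one_of_not_isCyclic hodd ⊤ (R.subgroupOf U) le_top htopp htopm
      hnc' (Subgroup.mem_top w) hwp
  let w₁ : R := ⟨(w : Ω), hwR⟩
  have hw₁ : τR w₁ = w₁ := by
    apply Subtype.ext
    rw [← hτ]
    have : Subgroup.inclusion hRU w₁ = w := rfl
    rw [this, hτw]
  have hw₂ : w₁ = 1 := hfix1 _ hw₁
  apply hw1
  apply Subtype.ext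
  have h9 : ((w₁ : R) : Ω) = 1 := by rw [hw₂]; rfl
  exact h9

end Main

end Cfsg.Agent.Lib.Fusion.Resist.Invert
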