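/-
Finite `2`-groups of rank two with an automorphism acting fixed-point-freely on the Frattini quotient.
-/
import Mathlib
import Cfsg.Agent.Lib.Fusion.Resist.GL
import Cfsg.Agent.Lib.Fusion.Resist.TwoStruct
import Cfsg.Agent.Lib.Fusion.Resist.Invert
import Cfsg.Agent.Lib.PGroup.Basic
import Cfsg.Agent.Lib.PGroup.CyclicMax

set_option autoImplicit false
set_option linter.style.haveILetI false
set_option linter.unusedSectionVars false

namespace Cfsg.Agent.Lib.Fusion.Resist.TwoFpf

open Cfsg.Agent.Lib.PGroup Cfsg.Agent.Lib.Fusion.Resist.GL Cfsg.Agent.Lib.Fusion.Resist.TwoStruct Subgroup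
open scoped commutatorElement

section Linear

variable {V : Type*} [AddCommGroup V] [Module (ZMod 2) V] [Finite V]

theorem add_self_V (x : V) : x + x = 0 := by
  have h : (2 : ZMod 2) • x = 0 := by
    rw [show (2 : ZMod 2) = 0 from rfl, zero_smul]
  rwa [two_smul] at h

theorem zmod2_cases (a : ZMod 2) : a = 0 ∨ a = 1 := by
  revert a
  decide

/-- A fixed-point-free `g`: the vectors `v`, `g v` form a basis and `v + g v + g² v = 0`. -/
theorem fpf_facts (hV : Module.finrank (ZMod 2) V ≤ 2) (g : V ≃ₗ[ZMod 2] V) (hg : ∀ v, v ≠ 0 → g v ≠ v)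
    {v : V} (hv : v ≠ 0) :
    Submodule.span (ZMod 2) {v, g v} = ⊤ ∧ v + g v + g (g v) = 0 ∧ Module.finrank (ZMod 2) V = 2 := by
  classical
  haveI : Module.Finite (ZMod 2) V := Module.Finite.of_finite
  have hgv : g v ≠ 0 := fun h => hv (g.map_eq_zero_iff.1 h)
  have hli : LinearIndependent (ZMod 2) ![v, g v] := by
    rw [LinearIndependent.pair_iff' hv]
    intro a h
    rcases zmod2_cases a with rfl | rfl
    · rw [zero_smul] at h
      exact hgv h.symm
    · rw [one_smul] at h
      exact hg v hv h.symm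
  have hcard : Fintype.card (Fin 2) = Module.finrank (ZMod 2) V := by
    have h1 := hli.fintype_card_le_finrank
    simp only [Fintype.card_fin] at h1 ⊢
    omega
  have hspan := hli.span_eq_top_of_card_eq_finrank hcard
  have hrange : Set.range ![v, g v] = {v, g v} := by
    rw [Matrix.range_cons, Matrix.range_cons, Matrix.range_empty, Set.union_empty, Set.singleton_union]
  rw [hrange] at hspan
  refine ⟨hspan, ?_, by simpa using hcard.symm⟩
  have hmem : g (g v) ∈ Submodule.span (ZMod 2) {v, g v} := by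
    rw [hspan]
    trivial
  obtain ⟨a, c, hac⟩ := Submodule.mem_span_pair.1 hmem
  rcases zmod2_cases a with rfl | rfl <;> rcases zmod2_cases c with rfl | rfl
  · exfalso
    simp only [zero_smul, add_zero] at hac
    exact hgv (g.map_eq_zero_iff.1 hac.symm)
  · exfalso
    simp only [zero_smul, zero_add, one_smul] at hac
    exact hg (g v) hgv hac.symm
  · exfalso
    simp only [zero_smul, add_zero, one_smul] at hac
    have h1 : g (v + g v) = v + g v := by
      rw [map_add, ← hac, add_comm]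
    have h2 : v + g v = 0 := by
      by_contra h3
      exact hg _ h3 h1
    have h3 : g v = v := by
      have h4 := add_self_V v
      have h5 : v + g v = v + v := by rw [h2, h4]
      exact add_left_cancel h5
    exact hg v hv h3
  · simp only [one_smul] at hac
    rw [← hac]
    exact add_self_V _

end Linear

section Group

variable {G : Type*} [Group G] [Finite G] {V : Type*} [AddCommGroup V] [Module (ZMod 2) V] [Finite V]

/-- A `y`-stable subgroup containing an element outside the Frattini subgroup is everything. -/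
theorem eq_top_of_mem (hV : Module.finrank (ZMod 2) V ≤ 2) (π : G →* Multiplicative V)
    (hπ : Function.Surjective π) (hker : π.ker = frattini G) (y : MulAut G)
    (hfpf : ∀ v, v ≠ 0 → frattGL (p := 2) π hπ hker y v ≠ v) (M : Subgroup G)
    (hMy : ∀ x ∈ M, y x ∈ M) {x : G} (hx : x ∈ M) (hπx : π x ≠ 1) : M = ⊤ := by
  classical
  set g := frattGL (p := 2) π hπ hker y with hg
  set v := Multiplicative.toAdd (π x) with hv
  have hv0 : v ≠ 0 := by
    intro h
    exact hπx (Multiplicative.toAdd.injective h)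
  have hgv : g v = Multiplicative.toAdd (π (y x)) := frattGL_apply π hπ hker y x
  obtain ⟨hspan, -, -⟩ := fpf_facts hV g hfpf hv0
  apply frattini_nongenerating
  rw [eq_top_iff]
  intro h _
  have hmem : Multiplicative.toAdd (π h) ∈ Submodule.span (ZMod 2) {v, g v} := by
    rw [hspan]
    trivial
  obtain ⟨a, c, hac⟩ := Submodule.mem_span_pair.1 hmem
  -- the element of `M`
  have key : ∃ w ∈ M, Multiplicative.toAdd (π w) = Multiplicative.toAdd (π h) := by
    rw [← hac, hgv]
    rcases zmod2_cases a with rfl | rfl <;> rcases zmod2_cases c with rfl | rfl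
    · exact ⟨1, one_mem _, by simp⟩
    · exact ⟨y x, hMy x hx, by simp⟩
    · exact ⟨x, hx, by simp [hv]⟩
    · refine ⟨x * y x, mul_mem hx (hMy x hx), ?_⟩
      simp [hv]
  obtain ⟨w, hw, hwh⟩ := key
  have h1 : π w = π h := Multiplicative.toAdd.injective hwh
  have h2 : w⁻¹ * h ∈ frattini G := by
    rw [← hker, MonoidHom.mem_ker, map_mul, map_inv, h1, inv_mul_cancel]
  have h3 : h = w * (w⁻¹ * h) := by group
  rw [h3]
  exact mul_mem (Subgroup.mem_sup_left hw) (Subgroup.mem_sup_right h2)

/-- The exponent of `G / G'`. -/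
theorem exists_min_exp (hG : IsPGroup 2 G) :
    ∃ n : ℕ, (∀ x : G, x ^ 2 ^ n ∈ commutator G) ∧ ∀ k < n, ∃ x : G, x ^ 2 ^ k ∉ commutator G := by
  classical
  obtain ⟨M, hM⟩ := IsPGroup.iff_card.1 hG
  have hex : ∃ n : ℕ, ∀ x : G, x ^ 2 ^ n ∈ commutator G := by
    refine ⟨M, fun x => ?_⟩
    rw [← hM, pow_card_eq_one']
    exact one_mem _
  refine ⟨Nat.find hex, Nat.find_spec hex, fun k hk => ?_⟩
  have := Nat.find_min hex hk
  push Not at this
  exact this

/-- Elements outside `Φ(G)` have the largest order modulo `G'`. -/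
theorem pow_notMem (hV : Module.finrank (ZMod 2) V ≤ 2) (π : G →* Multiplicative V)
    (hπ : Function.Surjective π) (hker : π.ker = frattini G) (y : MulAut G)
    (hfpf : ∀ v, v ≠ 0 → frattGL (p := 2) π hπ hker y v ≠ v) {k : ℕ}
    (hk : ∃ x : G, x ^ 2 ^ k ∉ commutator G) {x : G} (hx : π x ≠ 1) :
    x ^ 2 ^ k ∉ commutator G := by
  classical
  intro hmem
  obtain ⟨x₀, hx₀⟩ := hk
  let M : Subgroup G := (powMonoidHom (2 ^ k) : Abelianization G →* Abelianization G).ker.comap
    Abelianization.of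
  have hM : ∀ w, w ∈ M ↔ w ^ 2 ^ k ∈ commutator G := by
    intro w
    show (Abelianization.of w) ^ 2 ^ k = 1 ↔ _
    rw [← map_pow, ← MonoidHom.mem_ker, Abelianization.ker_of]
  have htop := eq_top_of_mem hV π hπ hker y hfpf M (fun w hw => by
    rw [hM] at hw ⊢
    rw [← map_pow]
    exact (ActionFrattini.char_mem (commutator G) y).2 hw) ((hM x).2 hmem) hx
  apply hx₀
  rw [← hM, htop]
  trivial

/-- The exponent of `G/G'` is two, if `G` is metacyclic. -/
theorem false_of_big_exp (hG : IsPGroup 2 G) (hCne : commutator G ≠ ⊥)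
    (hV : Module.finrank (ZMod 2) V ≤ 2) (π : G →* Multiplicative V)
    (hπ : Function.Surjective π) (hker : π.ker = frattini G) (y : MulAut G)
    (hfpf : ∀ v, v ≠ 0 → frattGL (p := 2) π hπ hker y v ≠ v)
    {N : Subgroup G} (hc : IsCyclic N) {c : G} (hcN : c ∈ N) (hCN : commutator G ≤ N)
    (hπc : π c ≠ 1) {k : ℕ} (hk : k ≠ 0) (hn : ∀ x : G, x ^ 2 ^ (k + 1) ∈ commutator G)
    (hcnot : c ^ 2 ^ k ∉ commutator G) : False := by
  classical
  have hNp : IsPGroup 2 N := hG.to_subgroup N
  set C := commutator G with hCdef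
  set z := c ^ 2 ^ (k + 1) with hz
  have hzC : z ∈ C := hn c
  have hzw : z = (c ^ 2 ^ k) ^ 2 := by
    rw [hz, ← pow_mul, pow_succ]
  have hCz : C = zpowers z := by
    apply le_antisymm _ ((Subgroup.zpowers_le).2 hzC)
    intro h hh
    rcases mem_zpowers_or hc hNp (⟨h, hCN hh⟩ : N) (⟨c ^ 2 ^ k, pow_mem hcN _⟩ : N) with h1 | h1
    · obtain ⟨j, hj⟩ := mem_zpowers_iff.1 h1
      have hj' : (c ^ 2 ^ k) ^ j = h := by
        have := congrArg Subtype.val hj
        simpa using this
      have h2 : h ∈ zpowers (c ^ 2 ^ k) := mem_zpowers_iff.2 ⟨j, hj'⟩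
      obtain ⟨j', rfl⟩ := Cfsg.Agent.Lib.PGroup.CyclicMax.SC.exists_nat_pow h2
      rcases Nat.even_or_odd j' with ⟨t, ht⟩ | hodd
      · refine mem_zpowers_iff.2 ⟨(t : ℤ), ?_⟩
        rw [zpow_natCast, ht, hzw, ← two_mul, pow_mul]
      · exfalso
        obtain ⟨T, hT⟩ := hG (c ^ 2 ^ k)
        have h3 := mem_zpowers_pow_of_odd hodd hT
        apply hcnot
        exact (Subgroup.zpowers_le.2 hh) h3
    · exfalso
      obtain ⟨j, hj⟩ := mem_zpowers_iff.1 h1
      have hj' : h ^ j = c ^ 2 ^ k := by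
        have := congrArg Subtype.val hj
        simpa using this
      apply hcnot
      rw [← hj']
      exact zpow_mem hh j
  have hβC : ∀ (β : MulAut G), ∀ h ∈ C, β h ∈ C := fun β h hh =>
    (ActionFrattini.char_mem C β).2 hh
  let D : Subgroup G := zpowers (z ^ 2)
  have hβD : ∀ (β : MulAut G), ∀ d ∈ D, β d ∈ D := by
    intro β d hd
    obtain ⟨j, rfl⟩ := mem_zpowers_iff.1 hd
    have h1 : β z ∈ zpowers z := by
      rw [← hCz]
      exact hβC β z hzC
    obtain ⟨l, hl⟩ := mem_zpowers_iff.1 h1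
    rw [map_zpow, map_pow, ← hl]
    refine mem_zpowers_iff.2 ⟨l * j, ?_⟩
    have e : (z ^ 2) ^ l = (z ^ l) ^ 2 := by
      rw [← zpow_natCast z 2, ← zpow_mul, ← zpow_natCast (z ^ l) 2, ← zpow_mul, mul_comm]
    rw [zpow_mul, e]
  haveI hDn : D.Normal := ⟨fun d hd x => by
    have := hβD (MulAut.conj x) d hd
    simpa [MulAut.conj_apply] using this⟩
  let q : G →* G ⧸ D := QuotientGroup.mk' D
  have hqone : ∀ x, q x = 1 ↔ x ∈ D := fun x => QuotientGroup.eq_one_iff x
  set zb := q z with hzb
  have hzb2 : zb ^ 2 = 1 := by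
    rw [hzb, ← map_pow, hqone]
    exact mem_zpowers _
  have hzb1 : zb ≠ 1 := by
    intro h
    have h1 : z ∈ D := (hqone z).1 h
    obtain ⟨j, hj⟩ := mem_zpowers_iff.1 h1
    have h2 : z ^ (2 * j - 1) = 1 := by
      rw [zpow_sub, zpow_one, zpow_mul, mul_inv_eq_one]
      exact_mod_cast hj
    have h3 : z = 1 := by
      obtain ⟨T, hT⟩ := hG z
      have h4 : orderOf z ∣ 2 ^ T := orderOf_dvd_of_pow_eq_one hT
      obtain ⟨u, -, hu⟩ := (Nat.dvd_prime_pow Nat.prime_two).1 h4
      have h5 : ((orderOf z : ℕ) : ℤ) ∣ 2 * j - 1 := orderOf_dvd_iff_zpow_eq_one.2 h2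
      rcases u with _ | u
      · rw [pow_zero] at hu
        exact orderOf_eq_one_iff.1 hu
      · exfalso
        rw [hu, pow_succ] at h5
        have h6 : (2 : ℤ) ∣ 2 * j - 1 := by
          refine dvd_trans ?_ h5
          push_cast
          exact dvd_mul_left _ _
        omega
    apply hCne
    rw [hCz, h3, Subgroup.zpowers_one_eq_bot]
  have hCq : ∀ h ∈ C, q h = 1 ∨ q h = zb := by
    intro h hh
    rw [hCz] at hh
    obtain ⟨l, rfl⟩ := mem_zpowers_iff.1 hh
    rcases Int.even_or_odd' l with ⟨t, rfl | rfl⟩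
    · left
      rw [map_zpow, zpow_mul, ← hzb]
      have : zb ^ (2 : ℤ) = 1 := by exact_mod_cast hzb2
      rw [this, one_zpow]
    · right
      rw [map_zpow, zpow_add, zpow_mul, zpow_one, ← hzb]
      have : zb ^ (2 : ℤ) = 1 := by exact_mod_cast hzb2
      rw [this, one_zpow, one_mul]
  have hβz : ∀ β : MulAut G, q (β z) = zb := by
    intro β
    rcases hCq _ (hβC β z hzC) with h | h
    · exfalso
      apply hzb1
      have h1 : β z ∈ D := (hqone _).1 h
      have h2 := hβD β⁻¹ _ h1
      rw [MulAut.inv_apply_self] at h2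
      exact (hqone z).2 h2
    · exact h
  have hcentral : ∀ x : G, q x * zb = zb * q x := by
    intro x
    have h1 := hβz (MulAut.conj x)
    rw [MulAut.conj_apply, map_mul, map_mul, map_inv] at h1
    have h1' : q x * zb * (q x)⁻¹ = zb := h1
    calc q x * zb = (q x * zb * (q x)⁻¹) * q x := by group
      _ = zb * q x := by rw [h1']
  have hcz : ∀ x w : G, q ⁅x, w⁆ = 1 ∨ q ⁅x, w⁆ = zb := fun x w =>
    hCq _ (Subgroup.commutator_mem_commutator (Subgroup.mem_top _) (Subgroup.mem_top _))
  have hcomm_q : ∀ (x w u : G), Commute (q x) (q ⁅w, u⁆) := by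
    intro x w u
    rcases hcz w u with h | h
    · rw [h]; exact Commute.one_right _
    · rw [h]; exact hcentral x
  set m := 2 ^ (k + 1) with hm
  have hmeven : ∃ t, m.choose 2 = 2 * t := by
    obtain ⟨j, rfl⟩ := Nat.exists_eq_succ_of_ne_zero hk
    have h2 : m = 4 * 2 ^ j := by
      rw [hm, show j.succ + 1 = 2 + j by omega, pow_add]
      norm_num
    refine ⟨2 ^ j * (4 * 2 ^ j - 1), ?_⟩
    rw [Nat.choose_two_right, h2]
    have h3 : 4 * 2 ^ j * (4 * 2 ^ j - 1) = 2 * (2 * (2 ^ j * (4 * 2 ^ j - 1))) := by ring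
    rw [h3]
    simp
  obtain ⟨t, ht⟩ := hmeven
  have hcm : ∀ x w : G, (q ⁅x, w⁆) ^ 2 = 1 := by
    intro x w
    rcases hcz x w with h | h
    · rw [h, one_pow]
    · rw [h, hzb2]
  have hP : ∀ a b : G, (q a * q b) ^ m = (q a) ^ m * (q b) ^ m := by
    intro a b
    have hx : Commute (q a) ⁅q b, q a⁆ := by
      rw [← map_commutatorElement]
      exact hcomm_q a b a
    have hy : Commute (q b) ⁅q b, q a⁆ := by
      rw [← map_commutatorElement]
      exact hcomm_q b b a
    rw [Basic.mul_pow_of_commutator_central hx hy, ht, pow_mul, ← map_commutatorElement, hcm, one_pow,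
      mul_one]
  have hmem2 : ∀ x : G, (q x ^ m) ^ 2 = 1 := by
    intro x
    rw [← map_pow]
    rcases hCq _ (hn x) with h | h
    · rw [h, one_pow]
    · rw [h, hzb2]
  let K : Subgroup G :=
    { carrier := {x | q x ^ m = 1}
      one_mem' := by simp
      mul_mem' := by
        intro a b ha hb
        show q (a * b) ^ m = 1
        rw [map_mul, hP, ha, hb, one_mul]
      inv_mem' := by
        intro a ha
        show q a⁻¹ ^ m = 1
        have h0 : q a ^ m = 1 := ha
        rw [map_inv, inv_pow, h0, inv_one] }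
  have hΦK : frattini G ≤ K := by
    rw [Basic.frattini_le_iff hG]
    constructor
    · intro x
      show q (x ^ 2) ^ m = 1
      rw [map_pow, ← pow_mul, mul_comm, pow_mul]
      exact hmem2 x
    · intro x w
      show q ⁅x, w⁆ ^ m = 1
      have : m = 2 * 2 ^ k := by rw [hm, pow_succ']
      rw [this, pow_mul, hcm, one_pow]
  -- the three conjugates
  set v := Multiplicative.toAdd (π c) with hv
  have hv0 : v ≠ 0 := fun h => hπc (Multiplicative.toAdd.injective h)
  set g := frattGL (p := 2) π hπ hker y with hg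
  have hsum := (fpf_facts hV g hfpf hv0).2.1
  have hgv : g v = Multiplicative.toAdd (π (y c)) := frattGL_apply π hπ hker y c
  have hggv : g (g v) = Multiplicative.toAdd (π (y (y c))) := by
    rw [hgv]
    exact frattGL_apply π hπ hker y (y c)
  have hprod : c * y c * y (y c) ∈ frattini G := by
    rw [← hker, MonoidHom.mem_ker]
    apply Multiplicative.toAdd.injective
    rw [hggv, hgv] at hsum
    simpa [hv] using hsum
  have h1 : q (c * y c * y (y c)) ^ m = 1 := hΦK hprod
  rw [map_mul, map_mul, ← map_mul q c (y c), hP, map_mul, hP] at h1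
  have e1 : q c ^ m = zb := by rw [← map_pow]
  have e2 : q (y c) ^ m = zb := by
    rw [← map_pow, ← map_pow, hβz y]
  have e3 : q (y (y c)) ^ m = zb := by
    rw [← map_pow, ← map_pow, ← map_pow]
    have := hβz (y * y)
    exact this
  rw [e1, e2, e3] at h1
  apply hzb1
  have h2 : zb * zb = 1 := by rw [← pow_two]; exact hzb2
  rw [h2, one_mul] at h1
  exact h1

/-- The remaining case `G / G'` of exponent two. -/
theorem exists_inverted_of_exp_two (hG : IsPGroup 2 G) (hna : ∃ a b : G, a * b ≠ b * a)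
    {N : Subgroup G} (hN : N.Normal) (hq : IsCyclic (G ⧸ N)) {c : G} (hNc : N = zpowers c)
    (hCN : commutator G ≤ N) (hCne : commutator G ≠ ⊥) (hn : ∀ x : G, x ^ 2 ∈ commutator G)
    (hcnot : c ∉ commutator G) :
    ∃ i s : G, orderOf i = 4 ∧ s * i * s⁻¹ = i⁻¹ ∧ s ^ 2 ∈ zpowers i := by
  classical
  haveI := hN
  set C := commutator G with hCdef
  obtain ⟨T', hT'⟩ := hG c
  obtain ⟨T, -, hT⟩ := (Nat.dvd_prime_pow Nat.prime_two).1 (orderOf_dvd_of_pow_eq_one hT')
  have hcN : c ∈ N := by rw [hNc]; exact mem_zpowers c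
  have hc2 : c ^ 2 ≠ 1 := by
    intro h
    apply hCne
    rw [eq_bot_iff]
    intro x hx
    have hxN : x ∈ zpowers c := by rw [← hNc]; exact hCN hx
    obtain ⟨j, hj⟩ := Cfsg.Agent.Lib.PGroup.CyclicMax.SC.exists_nat_pow hxN
    rw [Subgroup.mem_bot]
    rcases Nat.even_or_odd' j with ⟨t, rfl | rfl⟩
    · rw [hj, pow_mul, h, one_pow]
    · exfalso
      apply hcnot
      rw [hj, pow_succ, pow_mul, h, one_pow, one_mul] at hx
      exact hx
  have hT2 : 2 ≤ T := by
    by_contra hlt
    apply hc2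
    have : T = 0 ∨ T = 1 := by omega
    have h1 : orderOf c ∣ 2 := by
      rw [hT]
      rcases this with rfl | rfl <;> norm_num
    exact orderOf_dvd_iff_pow_eq_one.1 h1
  obtain ⟨b, hbN⟩ : ∃ b, b ∉ N := by
    by_contra hcon
    push Not at hcon
    obtain ⟨a, a', haa⟩ := hna
    apply haa
    have h1 : a * a' = a' * a := by
      have h2 : a ∈ zpowers c := by rw [← hNc]; exact hcon a
      have h3 : a' ∈ zpowers c := by rw [← hNc]; exact hcon a'
      obtain ⟨j, rfl⟩ := mem_zpowers_iff.1 h2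
      obtain ⟨j', rfl⟩ := mem_zpowers_iff.1 h3
      rw [← zpow_add, ← zpow_add, add_comm]
    exact h1
  let qN : G →* G ⧸ N := QuotientGroup.mk' N
  have hqN : ∀ x, qN x = 1 ↔ x ∈ N := fun x => QuotientGroup.eq_one_iff x
  have hsq : ∀ x, qN x ^ 2 = 1 := by
    intro x
    rw [← map_pow, hqN]
    exact hCN (hn x)
  have hcases : ∀ x, x ∈ N ∨ b⁻¹ * x ∈ N := by
    intro x
    rcases sq_cases_of_isCyclic hq (hsq b) (hsq x) with h | h | h
    · exact absurd ((hqN b).1 h) hbN
    · exact Or.inl ((hqN x).1 h)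
    · right
      rw [← hqN, map_mul, map_inv, h, inv_mul_cancel]
  have hbc : b * c * b⁻¹ ∈ zpowers c := by
    rw [← hNc]
    exact hN.conj_mem c hcN b
  obtain ⟨r, hr⟩ := Cfsg.Agent.Lib.PGroup.CyclicMax.SC.exists_nat_pow hbc
  have hCn : C.Normal := inferInstance
  have hrodd : Odd r := by
    by_contra hcon
    rw [Nat.not_odd_iff_even] at hcon
    obtain ⟨t, ht⟩ := hcon
    apply hcnot
    have h1 : b * c * b⁻¹ ∈ C := by
      rw [hr, ht, ← two_mul, pow_mul]
      exact pow_mem (hn c) t
    have h2 := hCn.conj_mem _ h1 b⁻¹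
    have h3 : b⁻¹ * (b * c * b⁻¹) * b⁻¹⁻¹ = c := by group
    rwa [h3] at h2
  have hr4 : r % 4 = 1 ∨ r % 4 = 3 := by
    obtain ⟨u, hu⟩ := hrodd
    omega
  rcases hr4 with hr4 | hr4
  · -- contradiction: `C ≤ ⟨c⁴⟩`
    exfalso
    let L : Subgroup G := zpowers (c ^ 4)
    haveI hLn : L.Normal := ⟨by
      intro d hd x
      obtain ⟨j, rfl⟩ := mem_zpowers_iff.1 hd
      have h1 : x * c * x⁻¹ ∈ zpowers c := by
        rw [← hNc]
        exact hN.conj_mem c hcN x
      obtain ⟨l, hl⟩ := mem_zpowers_iff.1 h1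
      rw [← conj_zpow, ← conj_pow, ← hl]
      refine mem_zpowers_iff.2 ⟨l * j, ?_⟩
      have e : (c ^ 4) ^ l = (c ^ l) ^ 4 := by
        rw [← zpow_natCast c 4, ← zpow_mul, ← zpow_natCast (c ^ l) 4, ← zpow_mul, mul_comm]
      rw [zpow_mul, e]⟩
    let q₂ : G →* G ⧸ L := QuotientGroup.mk' L
    have hq₂ : ∀ x, q₂ x = 1 ↔ x ∈ L := fun x => QuotientGroup.eq_one_iff x
    have hcomm1 : Commute (q₂ b) (q₂ c) := by
      rw [commute_iff_eq]
      have h1 : b * c * b⁻¹ * c⁻¹ ∈ L := by
        rw [hr]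
        obtain ⟨u, hu⟩ : 4 ∣ r - 1 := by
          obtain ⟨v, hv⟩ := hrodd
          omega
        have hr1 : 1 ≤ r := by
          obtain ⟨v, hv⟩ := hrodd
          omega
        have e : c ^ r * c⁻¹ = (c ^ 4) ^ u := by
          rw [← pow_mul, ← hu]
          rw [mul_inv_eq_iff_eq_mul, ← pow_succ]
          congr 1
          omega
        rw [e]
        exact pow_mem (mem_zpowers _) u
      have h2 := (hq₂ _).2 h1
      rw [map_mul, map_mul, map_mul, map_inv, map_inv] at h2
      have h3 : q₂ b * q₂ c * (q₂ b)⁻¹ = q₂ c := mul_inv_eq_one.1 h2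
      exact mul_inv_eq_iff_eq_mul.1 h3
    -- every element commutes with `b` and `c`
    have hN₂ : ∀ x ∈ N, ∃ j : ℤ, q₂ x = (q₂ c) ^ j := by
      intro x hx
      rw [hNc] at hx
      obtain ⟨j, rfl⟩ := mem_zpowers_iff.1 hx
      exact ⟨j, map_zpow _ _ _⟩
    have hE : ∀ x, Commute (q₂ x) (q₂ b) ∧ Commute (q₂ x) (q₂ c) := by
      intro x
      rcases hcases x with h | h
      · obtain ⟨j, hj⟩ := hN₂ x h
        rw [hj]
        exact ⟨(hcomm1.symm.zpow_left j), (Commute.refl _).zpow_left j⟩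
      · obtain ⟨j, hj⟩ := hN₂ _ h
        have e : q₂ x = q₂ b * (q₂ c) ^ j := by
          rw [← hj, ← map_mul, mul_inv_cancel_left]
        rw [e]
        exact ⟨(Commute.refl _).mul_left (hcomm1.symm.zpow_left j),
          hcomm1.mul_left ((Commute.refl _).zpow_left j)⟩
    have hall : ∀ x w, Commute (q₂ x) (q₂ w) := by
      intro x w
      rcases hcases w with h | h
      · obtain ⟨j, hj⟩ := hN₂ w h
        rw [hj]
        exact (hE x).2.zpow_right j
      · obtain ⟨j, hj⟩ := hN₂ _ h
        have e : q₂ w = q₂ b * (q₂ c) ^ j := by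
          rw [← hj, ← map_mul, mul_inv_cancel_left]
        rw [e]
        exact (hE x).1.mul_right ((hE x).2.zpow_right j)
    have hCL : C ≤ L := by
      rw [hCdef, _root_.commutator_def, Subgroup.commutator_le]
      intro x _ w _
      rw [← hq₂, map_commutatorElement, commutatorElement_eq_one_iff_mul_comm]
      exact (hall x w).eq
    have h1 : c ^ 2 ∈ L := hCL (hn c)
    obtain ⟨j, hj⟩ := mem_zpowers_iff.1 h1
    have h2 : c ^ (4 * j - 2) = 1 := by
      rw [zpow_sub, zpow_mul, mul_inv_eq_one]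
      exact_mod_cast hj
    have h3 := orderOf_dvd_iff_zpow_eq_one.2 h2
    rw [hT] at h3
    have h4 : (4 : ℤ) ∣ 4 * j - 2 := by
      refine dvd_trans ?_ h3
      obtain ⟨u, rfl⟩ : ∃ u, T = 2 + u := ⟨T - 2, by omega⟩
      push_cast
      rw [pow_add]
      exact dvd_mul_right _ _
    omega
  · -- the data
    obtain ⟨u, rfl⟩ : ∃ u, T = 2 + u := ⟨T - 2, by omega⟩
    set i := c ^ 2 ^ u with hi
    have hi4 : i ^ 4 = 1 := by
      rw [hi, ← pow_mul, mul_comm, show 4 * 2 ^ u = 2 ^ (2 + u) by rw [pow_add]; norm_num, ← hT,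
        pow_orderOf_eq_one]
    have hi2 : i ^ 2 = c ^ 2 ^ (1 + u) := by
      rw [hi, ← pow_mul, pow_add, pow_one, mul_comm]
    have hi2ne : i ^ 2 ≠ 1 := by
      rw [hi2]
      apply pow_ne_one_of_lt_orderOf (by positivity)
      rw [hT]
      exact Nat.pow_lt_pow_right (by norm_num) (by omega)
    refine ⟨i, b, ?_, ?_, ?_⟩
    · have : orderOf i = 2 ^ (1 + 1) := by
        apply orderOf_eq_prime_pow
        · simpa using hi2ne
        · simpa using hi4
      simpa using this
    · have h1 : b * i * b⁻¹ = i ^ r := by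
        rw [hi, ← conj_pow, hr, ← pow_mul, ← pow_mul, mul_comm]
      rw [h1]
      have h2 : r = 4 * (r / 4) + 3 := by omega
      rw [h2, pow_add, pow_mul, hi4, one_pow, one_mul]
      apply eq_inv_of_mul_eq_one_left
      rw [← pow_succ, hi4]
    · -- `b²` lies in `⟨i²⟩`
      have h1 : b ^ 2 ∈ zpowers c := by
        rw [← hNc]
        exact hCN (hn b)
      obtain ⟨w, hw⟩ := Cfsg.Agent.Lib.PGroup.CyclicMax.SC.exists_nat_pow h1
      have h2 : b * b ^ 2 * b⁻¹ = b ^ 2 := by
        rw [pow_two]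
        group
      have h3 : b * c ^ w * b⁻¹ = c ^ (r * w) := by
        rw [← conj_pow, hr, ← pow_mul]
      rw [hw, h3] at h2
      have h4 : r * w ≡ w [MOD orderOf c] := (pow_eq_pow_iff_modEq).1 h2
      rw [hT] at h4
      obtain ⟨d, hd⟩ : ∃ d, r = 2 * (2 * d + 1) + 1 := ⟨r / 4, by omega⟩
      have h5 : 2 ^ (2 + u) ∣ (r - 1) * w := by
        have h6 := (Nat.modEq_iff_dvd' (by nlinarith [hd] : w ≤ r * w)).1 h4.symm
        have h7 : r * w - w = (r - 1) * w := by
          rw [Nat.sub_mul, one_mul]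
        rwa [h7] at h6
      have h6 : r - 1 = 2 * (2 * d + 1) := by omega
      rw [h6, show 2 ^ (2 + u) = 2 * 2 ^ (1 + u) by ring, mul_assoc] at h5
      have h7 : 2 ^ (1 + u) ∣ (2 * d + 1) * w := Nat.dvd_of_mul_dvd_mul_left (by norm_num) h5
      have h8 : Nat.Coprime (2 ^ (1 + u)) (2 * d + 1) := by
        apply Nat.Coprime.pow_left
        simp
      obtain ⟨e, he⟩ := h8.dvd_of_dvd_mul_left h7
      rw [hw, he, pow_mul, ← hi2]
      exact pow_mem (pow_mem (mem_zpowers i) 2) e

/-- **The nonabelian case**: a nonabelian metacyclic `2`-group with an automorphism acting fixed-point-freely on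
the Frattini quotient contains an element of order `4` inverted by an element whose square is a power of it
(in fact it is the quaternion group of order `8`). -/
theorem exists_inverted (hG : IsPGroup 2 G) (hm : Cfsg.IsMetacyclic G) (hna : ∃ a b : G, a * b ≠ b * a)
    (hV : Module.finrank (ZMod 2) V ≤ 2) (π : G →* Multiplicative V)
    (hπ : Function.Surjective π) (hker : π.ker = frattini G) (y : MulAut G)
    (hfpf : ∀ v, v ≠ 0 → frattGL (p := 2) π hπ hker y v ≠ v) :
    ∃ i s : G, orderOf i = 4 ∧ s * i * s⁻¹ = i⁻¹ ∧ s ^ 2 ∈ zpowers i := by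
  classical
  obtain ⟨N, hN, hc, hq⟩ := hm
  obtain ⟨c₀, hc₀⟩ := hc.exists_generator
  set c : G := c₀.1 with hcdef
  have hNc : N = zpowers c := by
    ext g
    constructor
    · intro hg
      obtain ⟨k, hk⟩ := mem_zpowers_iff.1 (hc₀ ⟨g, hg⟩)
      refine mem_zpowers_iff.2 ⟨k, ?_⟩
      have := congrArg Subtype.val hk
      simpa using this
    · intro hg
      obtain ⟨k, rfl⟩ := mem_zpowers_iff.1 hg
      exact zpow_mem c₀.2 k
  have hcN : c ∈ N := c₀.2
  have hNp : IsPGroup 2 N := hG.to_subgroup N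
  set g := frattGL (p := 2) π hπ hker y with hg
  -- `C ≤ N`
  have hCN : commutator G ≤ N := by
    rw [_root_.commutator_def, Subgroup.commutator_le]
    intro a _ b _
    rw [← QuotientGroup.ker_mk' N, MonoidHom.mem_ker, map_commutatorElement,
      commutatorElement_eq_one_iff_mul_comm]
    exact comm_of_isCyclic hq _ _
  have hCne : commutator G ≠ ⊥ := by
    obtain ⟨a, b, hab⟩ := hna
    intro h
    apply hab
    have h1 : ⁅a, b⁆ ∈ commutator G :=
      Subgroup.commutator_mem_commutator (Subgroup.mem_top _) (Subgroup.mem_top _)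
    rw [h, Subgroup.mem_bot] at h1
    exact commutatorElement_eq_one_iff_mul_comm.1 h1
  -- `π c ≠ 1`
  have hπc : π c ≠ 1 := by
    intro hc1
    -- `V` is a quotient of the cyclic group `G / N`
    have hNker : N ≤ π.ker := by
      rw [hNc, Subgroup.zpowers_le]
      exact hc1
    let π' : G ⧸ N →* Multiplicative V := QuotientGroup.lift N π hNker
    have hπ' : Function.Surjective π' := by
      intro v
      obtain ⟨x, hx⟩ := hπ v
      exact ⟨(x : G ⧸ N), hx⟩
    have h1 := Invert.finrank_le_one_of_isCyclic (p := 2) hq π' hπ'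
    have hex : ∃ v : V, v ≠ 0 := by
      by_contra hcon
      push Not at hcon
      obtain ⟨a, b, hab⟩ := hna
      have hall : ∀ x : G, π x = 1 := fun x => Multiplicative.toAdd.injective (hcon _)
      have htop : (⊥ : Subgroup G) ⊔ frattini G = ⊤ := by
        rw [bot_sup_eq, ← hker, eq_top_iff]
        intro x _
        exact hall x
      have h2 := frattini_nongenerating htop
      apply hab
      have h3 : ∀ x : G, x = 1 := by
        intro x
        have : x ∈ (⊥ : Subgroup G) := by rw [h2]; trivial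
        exact this
      rw [h3 a, h3 b]
    obtain ⟨v, hv⟩ := hex
    have h2 := (fpf_facts hV g hfpf hv).2.2
    omega
  have hCΦ : commutator G ≤ frattini G := Basic.commutator_le_frattini hG
  obtain ⟨n, hn, hmin⟩ := exists_min_exp hG
  -- `n ≠ 0`
  have hn0 : n ≠ 0 := by
    rintro rfl
    have h1 : c ∈ commutator G := by simpa using hn c
    have h2 : c ∈ π.ker := by rw [hker]; exact hCΦ h1
    exact hπc h2
  obtain ⟨k, rfl⟩ := Nat.exists_eq_succ_of_ne_zero hn0
  have hcnot : c ^ 2 ^ k ∉ commutator G :=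
    pow_notMem hV π hπ hker y hfpf (hmin k (Nat.lt_succ_self k)) hπc
  have hvne : Multiplicative.toAdd (π c) ≠ 0 := fun h => hπc (Multiplicative.toAdd.injective h)
  by_cases hk0 : k = 0
  · subst hk0
    exact exists_inverted_of_exp_two hG ⟨_, _, hna.choose_spec.choose_spec⟩ hN hq hNc hCN hCne hn
      (by simpa using hcnot)
  · -- `k ≥ 1`: contradiction
    exfalso
    exact false_of_big_exp hG hCne hV π hπ hker y hfpf hc hcN hCN hπc hk0 hn hcnot

end Group

end Cfsg.Agent.Lib.Fusion.Resist.TwoFpf
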